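import Cfsg.Agent.ZassAbelian.Final
import Cfsg.Agent.Chars.Apps.FrobeniusKernel
import Cfsg.Agent.Frobenius.FPF

/-!
A doubly transitive group in which only the identity fixes three points and the two-point
stabiliser has even order has abelian kernel.
-/

set_option autoImplicit false
set_option linter.style.haveILetI false
set_option linter.unusedSectionVars false

namespace CfsgLib.ZassAbelian

open MulAction

universe u

variable {G : Type u} {Ω : Type*} [Group G] [MulAction G Ω]

theorem exists_regular_kernel [Finite G] [Finite Ω]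
    (hpair : ∀ x y z w : Ω, x ≠ y → z ≠ w → ∃ g : G, g • x = z ∧ g • y = w)
    (hthree : ∀ g : G, ∀ x y z : Ω, x ≠ y → y ≠ z → x ≠ z →
      g • x = x → g • y = y → g • z = z → g = 1)
    (hΩ : 3 ≤ Nat.card Ω) {a b : Ω} (hab : a ≠ b) :
    ∃ F : Subgroup G, F ≤ stabilizer G a ∧ Nat.card F + 1 = Nat.card Ω ∧
      (∀ g ∈ stabilizer G a, ∀ u ∈ F, g * u * g⁻¹ ∈ F) ∧
      (∀ y z : Ω, y ≠ a → z ≠ a → ∃ u ∈ F, u • y = z) ∧
      (∀ u ∈ F, ∀ y : Ω, y ≠ a → u • y = y → u = 1) ∧
      ∃ φ : ↥(stabilizer G a ⊓ stabilizer G b) →* MulAut F,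
        ∀ h, h ≠ 1 → ∀ u : F, φ h u = u → u = 1 := by
  classical
  haveI := Fintype.ofFinite Ω
  obtain ⟨c, hc⟩ : ∃ c : Ω, c ∉ ({a, b} : Finset Ω) := by
    by_contra h
    push Not at h
    have := Finset.card_le_card (show (Finset.univ : Finset Ω) ⊆ {a, b} from fun x _ => h x)
    rw [Finset.card_univ, Finset.card_pair hab, ← Nat.card_eq_fintype_card] at this
    omega
  simp only [Finset.mem_insert, Finset.mem_singleton, not_or] at hc
  set S := stabilizer G a with hS
  let X := SubMulAction.ofStabilizer G a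
  let b' : X := ⟨b, hab.symm⟩
  haveI hXt : IsPretransitive S X := ⟨fun y z => by
    obtain ⟨g, h1, h2⟩ := hpair a y a z (fun e => y.2 e.symm) (fun e => z.2 e.symm)
    exact ⟨⟨g, h1⟩, Subtype.ext h2⟩⟩
  set H0 := stabilizer S b' with hH0
  have hfix : ∀ (s : S) (y z : X), y ≠ z → s • y = y → s • z = z → s = 1 := fun s y z hyz hy hz =>
    Subtype.ext (hthree s a y z (fun e => y.2 e.symm) (fun e => hyz (Subtype.ext e))
      (fun e => z.2 e.symm) s.2 (congrArg Subtype.val hy) (congrArg Subtype.val hz))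
  have hTI : ∀ g h : S, h ∈ H0 → h ≠ 1 → g * h * g⁻¹ ∈ H0 → g ∈ H0 := by
    intro g h hh h1 hg
    have h2 : h • g⁻¹ • b' = g⁻¹ • b' := by
      have : (g * h * g⁻¹) • b' = b' := hg
      rw [mul_smul, mul_smul] at this
      rw [← eq_inv_smul_iff] at this
      exact this
    by_contra hne
    have hne' : g⁻¹ • b' ≠ b' := fun e => hne (by
      show g • b' = b'
      rw [← eq_inv_smul_iff]; exact e.symm)
    exact h1 (hfix h _ _ hne' h2 hh)
  obtain ⟨K, hKn, -, hKcard, hKH, -⟩ :=
    CfsgLib.Chars.Apps.exists_normal_complement_of_malnormal H0 hTI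
  haveI := hKn
  have hKfree : ∀ k ∈ K, ∀ y : X, k • y = y → k = 1 := by
    intro k hk y hy
    obtain ⟨g, rfl⟩ := exists_smul_eq S b' y
    have h1 : g⁻¹ * k * g ∈ K ⊓ H0 := by
      refine ⟨?_, ?_⟩
      · have := hKn.conj_mem k hk g⁻¹
        rwa [inv_inv] at this
      · show (g⁻¹ * k * g) • b' = b'
        rw [mul_smul, mul_smul, hy, inv_smul_smul]
    rw [hKH, Subgroup.mem_bot] at h1
    calc k = g * (g⁻¹ * k * g) * g⁻¹ := by group
      _ = 1 := by rw [h1]; group
  have horb : ∀ z : X, ∃ k ∈ K, k • b' = z := by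
    haveI := Fintype.ofFinite X
    have hf : Function.Bijective (fun k : K => (k : S) • b') := by
      refine (Nat.bijective_iff_injective_and_card _).2 ⟨fun u v e => ?_, ?_⟩
      · have h1 := hKfree ((v : S)⁻¹ * u) (K.mul_mem (K.inv_mem v.2) u.2) b'
          (by rw [mul_smul, show (u : S) • b' = (v : S) • b' from e, inv_smul_smul])
        exact Subtype.ext (inv_mul_eq_one.1 h1).symm
      · rw [hKcard, hH0, index_stabilizer_of_transitive]
    intro z
    obtain ⟨k, hk⟩ := hf.2 z
    exact ⟨k, k.2, hk⟩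
  let φ : H0 →* MulAut K := (MulAut.conjNormal (H := K)).comp H0.subtype
  have hφ : ∀ h : H0, h ≠ 1 → ∀ k : K, φ h k = k → k = 1 := by
    intro h h1 k hk
    by_contra hk1
    have e : (h : S) * k * (h : S)⁻¹ = k := congrArg Subtype.val hk
    have hne : (k : S) • b' ≠ b' := fun e' => hk1 (Subtype.ext (hKfree k k.2 b' e'))
    refine h1 (Subtype.ext (hfix h _ _ hne ?_ h.2))
    rw [← mul_smul, mul_inv_eq_iff_eq_mul.1 e, mul_smul, show (h : S) • b' = b' from h.2]
  let j : ↥(stabilizer G a ⊓ stabilizer G b) →* H0 :=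
    { toFun := fun h => ⟨⟨(h : G), h.2.1⟩, Subtype.ext h.2.2⟩
      map_one' := rfl
      map_mul' := fun _ _ => rfl }
  let e : K ≃* K.map S.subtype := K.equivMapOfInjective _ S.subtype_injective
  refine ⟨K.map S.subtype, Subgroup.map_subtype_le K, ?_, ?_, ?_, ?_,
    (MulAut.congr e).toMonoidHom.comp (φ.comp j), fun h hh u hu => ?_⟩
  · rw [Subgroup.card_map_of_injective S.subtype_injective, hKcard, hH0,
      index_stabilizer_of_transitive, SubMulAction.nat_card_ofStabilizer_eq]
    omega
  · rintro g hg _ ⟨k, hk, rfl⟩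
    exact ⟨⟨g, hg⟩ * k * ⟨g, hg⟩⁻¹, hKn.conj_mem k hk _, rfl⟩
  · intro y z hy hz
    obtain ⟨k, hk, e1⟩ := horb ⟨y, hy⟩
    obtain ⟨l, hl, e2⟩ := horb ⟨z, hz⟩
    refine ⟨((l * k⁻¹ : S) : G), ⟨_, K.mul_mem hl (K.inv_mem hk), rfl⟩, ?_⟩
    have : (l * k⁻¹) • (⟨y, hy⟩ : X) = ⟨z, hz⟩ := by
      rw [← e1, ← mul_smul, inv_mul_cancel_right, e2]
    exact congrArg Subtype.val this
  · rintro _ ⟨k, hk, rfl⟩ y hy e'
    exact congrArg Subtype.val (hKfree k hk ⟨y, hy⟩ (Subtype.ext e'))
  · have hk : φ (j h) (e.symm u) = e.symm u := e.injective (by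
      rw [e.apply_symm_apply]; exact hu)
    have hj : j h ≠ 1 := fun e' => hh (Subtype.ext
      (congrArg (fun t : H0 => ((t : S) : G)) e'))
    rw [← e.apply_symm_apply u, hφ _ hj _ hk, map_one]

/-- A group with a fixed point free automorphism group having at most two orbits on the non-identity
elements is commutative, if it has prime power order. -/
theorem comm_of_two_orbits {N A : Type*} [Group N] [Group A] [Finite N] [Finite A] {p : ℕ}
    [Fact p.Prime] (hp : IsPGroup p N) (φ : A →* MulAut N)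
    (hφ : ∀ a : A, a ≠ 1 → ∀ n : N, φ a n = n → n = 1)
    (h2 : Nat.card N - 1 ≤ 2 * Nat.card A) (x y : N) : x * y = y * x := by
  classical
  rcases subsingleton_or_nontrivial N with hs | hs
  · exact Subsingleton.elim _ _
  haveI := Fintype.ofFinite N
  haveI := Fintype.ofFinite A
  by_contra hxy
  have hx : x ∉ Subgroup.center N := fun h => hxy ((Subgroup.mem_center_iff.1 h y).symm)
  haveI := hp.center_nontrivial
  obtain ⟨z, hz⟩ := exists_ne (1 : Subgroup.center N)
  have hinj : ∀ n : N, n ≠ 1 → Function.Injective fun a : A => φ a n := by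
    intro n hn a b e
    by_contra hab
    refine hn (hφ (b⁻¹ * a) (fun h => hab (inv_mul_eq_one.1 h).symm) n ?_)
    rw [map_mul, MulAut.mul_apply, show φ a n = φ b n from e, ← MulAut.mul_apply, ← map_mul,
      inv_mul_cancel, map_one, MulAut.one_apply]
  have hmem : ∀ (a : A) (n : N), φ a n ∈ Subgroup.center N ↔ n ∈ Subgroup.center N := by
    intro a n
    simp only [Subgroup.mem_center_iff]
    constructor
    · intro h g
      exact (φ a).injective (by rw [map_mul, map_mul]; exact h (φ a g))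
    · intro h g
      obtain ⟨g', rfl⟩ := (φ a).surjective g
      rw [← map_mul, ← map_mul, h g']
  have hz1 : (z : N) ≠ 1 := fun e => hz (Subtype.ext e)
  have h1 : Nat.card A ≤ Nat.card (Subgroup.center N) - 1 := by
    have := Nat.card_le_card_of_injective
      (fun a : A => (⟨⟨φ a z, (hmem a z).2 z.2⟩, fun e => hz1 ((φ a).injective
        ((congrArg Subtype.val e).trans (map_one _).symm))⟩ : {c : Subgroup.center N // c ≠ 1}))
      (fun a b e => hinj _ hz1 (congrArg (fun c => ((c.1 : Subgroup.center N) : N)) e))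
    rwa [Nat.card_eq_fintype_card (α := {c : Subgroup.center N // c ≠ 1}),
      Fintype.card_subtype_compl, Fintype.card_subtype_eq, ← Nat.card_eq_fintype_card] at this
  have h3 : Nat.card A ≤ Nat.card N - Nat.card (Subgroup.center N) := by
    have := Nat.card_le_card_of_injective
      (fun a : A => (⟨φ a x, fun e => hx ((hmem a x).1 e)⟩ : {c : N // ¬ c ∈ Subgroup.center N}))
      (fun a b e => hinj x (fun h => hx (h.symm ▸ one_mem _ : x ∈ Subgroup.center N)) (congrArg Subtype.val e))
    rwa [Nat.card_eq_fintype_card (α := {c : N // ¬ c ∈ Subgroup.center N}),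
      Fintype.card_subtype_compl, ← Nat.card_eq_fintype_card, ← Nat.card_eq_fintype_card] at this
  obtain ⟨m, hm⟩ := Subgroup.card_subgroup_dvd_card (Subgroup.center N)
  have hA : 0 < Nat.card A := Nat.card_pos
  have hN : Nat.card N + 1 = 2 * Nat.card (Subgroup.center N) := by
    have := Nat.card_pos (α := Subgroup.center N)
    omega
  rcases m with _ | _ | m
  · omega
  · omega
  · rw [show m + 1 + 1 = m + 2 from rfl] at hm
    have := Nat.mul_le_mul_left (Nat.card (Subgroup.center N)) (show 2 ≤ m + 2 by omega)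
    omega

end CfsgLib.ZassAbelian
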